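import Cfsg.Agent.EInvol.Main
import Cfsg.Agent.EInvol.DataE7
import Cfsg.Agent.EInvol.RankE7
import Cfsg.Agent.Chev.Rules

/-!
# The classes of involutions of type E7 in characteristic two
-/

set_option autoImplicit false

namespace Cfsg.Agent.EInvol.E7

open Cfsg.Lie Cfsg.Agent.ChevGrp

set_option maxHeartbeats 0 in
set_option maxRecDepth 100000 in
theorem len_one : ∀ r < chevE7.nroots, Chev.lenCertE7.len r = 1 := by decide +kernel

set_option maxHeartbeats 0 in
set_option maxRecDepth 100000 in
theorem cartan_symm : ∀ i j : Fin chevE7.rank, chevE7.cartan i (chevE7.simple j) = chevE7.cartan j (chevE7.simple i) := by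
  decide +kernel

theorem good : Good chevE7 Chev.lenCertE7.len where
  root := Chev.validE7.rootTable Chev.lenValidE7
  len1 := len_one
  symm := cartan_symm
  row := rowValid

set_option maxHeartbeats 0 in
set_option maxRecDepth 100000 in
theorem repValid : repB chevE7 tab reps certs = true := by decide +kernel

/-- The rules. -/
theorem rules (F : Type*) [Field F] : ChevGrp.Rules chevE7 F := Chev.rules_of_mem F (by simp)

variable (F : Type*) [Field F] [Fintype F] [CharP F 2]

theorem classes : Classes chevE7 F reps :=
  EInvol.classes (rules F) good tabValid treeValid certsValid repValid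

end Cfsg.Agent.EInvol.E7
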